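import Cfsg.Agent.H378.RegFin
import Cfsg.Agent.H416.Arith
import Cfsg.Agent.S1065

/-!
# A CC-subgroup of `E₈(q)` of order dividing `Φ₃₀(q)` (helper293)
-/

set_option autoImplicit false

namespace Cfsg.Agent.H293.Conj.E8CC

open Cfsg Cfsg.Lie Cfsg.Agent.H378.RegFin Cfsg.Agent.H378.ExcAdj Cfsg.Agent.H378.ExcNear
open Cfsg.Agent.BpExc.FamInst Cfsg.Agent.BpExc.RowsUntw

universe u

theorem not_dvd30 (q s : ℤ) (hs : s = 2 ∨ s = 3 ∨ s = 5) : ¬ s ∣ (Polynomial.cyclotomic 30 ℤ).eval q := by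
  rw [H416.Arith.eval_30]
  intro h
  rcases hs with rfl | rfl | rfl
  · have h1 : ((q ^ 8 + q ^ 7 - q ^ 5 - q ^ 4 - q ^ 3 + q + 1 : ℤ) : ZMod 2) = 0 :=
      (ZMod.intCast_zmod_eq_zero_iff_dvd _ 2).2 h
    push_cast at h1
    generalize (q : ZMod 2) = x at h1
    revert h1; revert x; decide
  · have h1 : ((q ^ 8 + q ^ 7 - q ^ 5 - q ^ 4 - q ^ 3 + q + 1 : ℤ) : ZMod 3) = 0 :=
      (ZMod.intCast_zmod_eq_zero_iff_dvd _ 3).2 h
    push_cast at h1
    generalize (q : ZMod 3) = x at h1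
    revert h1; revert x; decide
  · have h1 : ((q ^ 8 + q ^ 7 - q ^ 5 - q ^ 4 - q ^ 3 + q + 1 : ℤ) : ZMod 5) = 0 :=
      (ZMod.intCast_zmod_eq_zero_iff_dvd _ 5).2 h
    push_cast at h1
    generalize (q : ZMod 5) = x at h1
    revert h1; revert x; decide

/-- Every prime divisor of `Φ₃₀(q)` has multiplicative order `30`. -/
theorem od_eq {q s : ℕ} (hs : s.Prime) (h : s ∣ ((Polynomial.cyclotomic 30 ℤ).eval ((q : ℕ) : ℤ)).natAbs) :
    od q s = 30 := by
  have h' : (s : ℤ) ∣ (Polynomial.cyclotomic 30 ℤ).eval ((q : ℕ) : ℤ) := Int.natCast_dvd.2 h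
  have : Fact s.Prime := ⟨hs⟩
  have hd : ¬ s ∣ 30 := by
    intro h1
    have h2 : s ∣ 2 * (3 * 5) := h1
    rcases (Nat.Prime.dvd_mul hs).1 h2 with h3 | h3
    · have h4 := (Nat.prime_dvd_prime_iff_eq hs Nat.prime_two).1 h3
      exact not_dvd30 q s (Or.inl (by exact_mod_cast h4)) h'
    · rcases (Nat.Prime.dvd_mul hs).1 h3 with h4 | h4
      · have h5 := (Nat.prime_dvd_prime_iff_eq hs Nat.prime_three).1 h4
        exact not_dvd30 q s (Or.inr (Or.inl (by exact_mod_cast h5))) h'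
      · have h5 := (Nat.prime_dvd_prime_iff_eq hs Nat.prime_five).1 h4
        exact not_dvd30 q s (Or.inr (Or.inr (by exact_mod_cast h5))) h'
  have : NeZero ((30 : ℕ) : ZMod s) := ⟨fun h0 => hd ((ZMod.natCast_eq_zero_iff 30 s).1 h0)⟩
  have h1 : (Polynomial.cyclotomic 30 (ZMod s)).IsRoot ((q : ℕ) : ZMod s) := by
    rw [Polynomial.IsRoot.def, ← Polynomial.map_cyclotomic_int,
      show (((q : ℕ) : ZMod s)) = Int.castRingHom (ZMod s) ((q : ℕ) : ℤ) by simp, Polynomial.eval_map,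
      Polynomial.eval₂_hom]
    exact (ZMod.intCast_zmod_eq_zero_iff_dvd _ s).2 h'
  exact (Polynomial.isRoot_cyclotomic_iff.1 h1).eq_orderOf.symm

/-- `E₈(q)` has a CC-subgroup of order dividing `Φ₃₀(q)`. -/
theorem exists_cc (F : Type u) [Field F] [Finite F] : ∃ C : Subgroup ↥(chevE8.group F), C ≠ ⊥ ∧
    (∀ c ∈ C, c ≠ 1 → Subgroup.centralizer {c} = C) ∧
    Nat.card C ∣ ((Polynomial.cyclotomic 30 ℤ).eval ((Nat.card F : ℕ) : ℤ)).natAbs := by
  have hq : 2 ≤ Nat.card F := Finite.one_lt_card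
  have hne : ((Polynomial.cyclotomic 30 ℤ).eval ((Nat.card F : ℕ) : ℤ)).natAbs ≠ 1 := by
    have := Polynomial.sub_one_lt_natAbs_cyclotomic_eval (n := 30) (q := Nat.card F) (by norm_num) (by omega)
    omega
  obtain ⟨ℓ, hℓ, hd⟩ := Nat.exists_prime_and_dvd hne
  have hd1 : ℓ ∣ Nat.card F ^ 30 - 1 := by
    have h1 : (ℓ : ℤ) ∣ (Polynomial.cyclotomic 30 ℤ).eval ((Nat.card F : ℕ) : ℤ) := Int.natCast_dvd.2 hd
    have h2 : (ℓ : ℤ) ∣ ((Nat.card F : ℕ) : ℤ) ^ 30 - 1 := by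
      refine h1.trans ?_
      have h2 := Polynomial.eval_dvd (x := ((Nat.card F : ℕ) : ℤ)) (Polynomial.cyclotomic.dvd_X_pow_sub_one 30 ℤ)
      simpa using h2
    have h3 : 1 ≤ Nat.card F ^ 30 := Nat.one_le_pow _ _ (by omega)
    have h4 : ((Nat.card F ^ 30 - 1 : ℕ) : ℤ) = ((Nat.card F : ℕ) : ℤ) ^ 30 - 1 := by
      rw [Nat.cast_sub h3]; push_cast; ring
    rw [← h4] at h2
    exact_mod_cast h2
  have hdG : ℓ ∣ Nat.card ↥(chevE8.group F) := by
    have : Fintype F := Fintype.ofFinite F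
    rw [S1065.result (F := F) (q := Nat.card F) (Nat.card_eq_fintype_card).symm]
    exact hd1.mul_left _
  have : Fact ℓ.Prime := ⟨hℓ⟩
  obtain ⟨x, hx⟩ := exists_prime_orderOf_dvd_card' ℓ hdG
  obtain ⟨hA, hN⟩ := cent_od e8T inv_E8 one_ne_zero hℓ hx (od_eq hℓ hd) (by decide) (by norm_num)
  refine ⟨Subgroup.centralizer {x}, ?_, ?_, hN⟩
  · intro h0
    have h1 : x ∈ Subgroup.centralizer {x} := Subgroup.mem_centralizer_singleton_iff.2 rfl
    rw [h0, Subgroup.mem_bot] at h1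
    rw [h1, orderOf_one] at hx
    exact hℓ.one_lt.ne hx
  · intro c hc hc1
    have hcx : Commute c x := Subgroup.mem_centralizer_singleton_iff.1 hc
    obtain ⟨p, hp, hpc⟩ := Nat.exists_prime_and_dvd (fun h => hc1 (orderOf_eq_one_iff.1 h) : orderOf c ≠ 1)
    have hy : orderOf (c ^ (orderOf c / p)) = p := by
      rw [orderOf_pow_of_dvd (Nat.div_pos (Nat.le_of_dvd (orderOf_pos c) hpc) hp.pos).ne' (Nat.div_dvd_of_dvd hpc)]
      exact Nat.div_div_self hpc (orderOf_pos c).ne'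
    have hpC : p ∣ ((Polynomial.cyclotomic 30 ℤ).eval ((Nat.card F : ℕ) : ℤ)).natAbs :=
      (hpc.trans (Subgroup.orderOf_dvd_natCard _ hc)).trans hN
    have hB := (cent_od e8T inv_E8 one_ne_zero hp hy (od_eq hp hpC) (by decide) (by norm_num)).1
    ext g
    rw [Subgroup.mem_centralizer_singleton_iff, Subgroup.mem_centralizer_singleton_iff]
    constructor
    · intro hg
      exact hB g x (Commute.pow_right hg _) (Commute.pow_right (hcx.symm : Commute x c) _)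
    · intro hg
      exact hA g c hg hcx

end Cfsg.Agent.H293.Conj.E8CC
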